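import Mathlib

/-!
# A numerical obstruction to doubly transitive actions

A group with a subgroup `P` of order 27 all of whose nonidentity elements are conjugate, and with a
subgroup `13 : 3`, has no faithful doubly transitive action whose degree is small.
-/

set_option autoImplicit false

namespace Cfsg.Agent.Lib.Contrib.Tits.Abs

open MulAction

variable {T Ω : Type*} [Group T] [Finite T] [Fintype Ω] [MulAction T Ω]

/-- Number of fixed points. -/
noncomputable def fx (Ω : Type*) [Fintype Ω] {T : Type*} [Group T] [MulAction T Ω] (y : T) : ℕ :=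
  Nat.card {ω : Ω // y • ω = ω}

/-- Conjugate elements have the same number of fixed points. -/
lemma fx_conj (g y r : T) (h : g * y * g⁻¹ = r) : fx Ω r = fx Ω y := by
  subst h
  unfold fx
  refine (Nat.card_congr ?_).symm
  refine ⟨fun ω => ⟨g • ω.1, ?_⟩, fun ω => ⟨g⁻¹ • ω.1, ?_⟩, ?_, ?_⟩
  · rw [smul_smul, mul_assoc, mul_assoc, inv_mul_cancel, mul_one, mul_smul, ω.2]
  · have := ω.2
    rw [mul_smul, mul_smul] at this
    have h2 : g⁻¹ • g • y • g⁻¹ • ω.1 = g⁻¹ • ω.1 := by rw [this]
    rwa [inv_smul_smul] at h2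
  · intro ω; simp
  · intro ω; simp

/-- The elements of `⟨u, v⟩` in normal form. -/
lemma mem_closure_normal {u v d : T} (hu : u ^ 3 = 1) (hv : v ^ 3 = 1) (hd : d ^ 3 = 1)
    (hrel : v * u = u * v * d) (hdu : d * u = u * d) (hdv : d * v = v * d) {r : T}
    (hr : r ∈ Subgroup.closure ({u, v} : Set T)) :
    ∃ i j k : ℕ, i < 3 ∧ j < 3 ∧ k < 3 ∧ r = u ^ i * v ^ j * d ^ k := by
  have hvj : ∀ j : ℕ, v ^ j * u = u * v ^ j * d ^ j := by
    intro j
    induction j with
    | zero => simp
    | succ j ih =>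
      calc v ^ (j + 1) * u = v ^ j * (v * u) := by rw [pow_succ]; group
        _ = v ^ j * (u * v * d) := by rw [hrel]
        _ = (v ^ j * u) * v * d := by group
        _ = (u * v ^ j * d ^ j) * v * d := by rw [ih]
        _ = u * v ^ j * (d ^ j * v) * d := by group
        _ = u * v ^ j * (v * d ^ j) * d := by rw [((show Commute d v from hdv).pow_left j).eq]
        _ = u * v ^ (j + 1) * d ^ (j + 1) := by rw [pow_succ v, pow_succ d]; group
  have mr_u : ∀ i j k : ℕ, u ^ i * v ^ j * d ^ k * u = u ^ (i + 1) * v ^ j * d ^ (k + j) := by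
    intro i j k
    calc u ^ i * v ^ j * d ^ k * u = u ^ i * (v ^ j * (d ^ k * u)) := by group
      _ = u ^ i * (v ^ j * (u * d ^ k)) := by rw [((show Commute d u from hdu).pow_left k).eq]
      _ = u ^ i * ((v ^ j * u) * d ^ k) := by group
      _ = u ^ i * ((u * v ^ j * d ^ j) * d ^ k) := by rw [hvj]
      _ = u ^ (i + 1) * v ^ j * d ^ (k + j) := by
        rw [pow_succ u, add_comm k j, pow_add d]; group
  have mr_v : ∀ i j k : ℕ, u ^ i * v ^ j * d ^ k * v = u ^ i * v ^ (j + 1) * d ^ k := by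
    intro i j k
    calc u ^ i * v ^ j * d ^ k * v = u ^ i * v ^ j * (d ^ k * v) := by group
      _ = u ^ i * v ^ j * (v * d ^ k) := by rw [((show Commute d v from hdv).pow_left k).eq]
      _ = u ^ i * v ^ (j + 1) * d ^ k := by rw [pow_succ v]; group
  have uinv : u⁻¹ = u * u := by
    have : u * u * u = 1 := by rw [← hu, pow_three, mul_assoc]
    exact inv_eq_of_mul_eq_one_left this
  have vinv : v⁻¹ = v * v := by
    have : v * v * v = 1 := by rw [← hv, pow_three, mul_assoc]
    exact inv_eq_of_mul_eq_one_left this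
  have key : ∃ i j k : ℕ, r = u ^ i * v ^ j * d ^ k := by
    induction hr using Subgroup.closure_induction_right with
    | one => exact ⟨0, 0, 0, by simp⟩
    | mul_right x _ y hy ih =>
      obtain ⟨i, j, k, rfl⟩ := ih
      rcases hy with rfl | hy
      · exact ⟨_, _, _, mr_u i j k⟩
      · rw [Set.mem_singleton_iff] at hy
        subst hy
        exact ⟨_, _, _, mr_v i j k⟩
    | mul_inv_cancel x _ y hy ih =>
      obtain ⟨i, j, k, rfl⟩ := ih
      rcases hy with rfl | hy
      · rw [uinv, ← mul_assoc, mr_u, mr_u]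
        exact ⟨_, _, _, rfl⟩
      · rw [Set.mem_singleton_iff] at hy
        subst hy
        rw [vinv, ← mul_assoc, mr_v, mr_v]
        exact ⟨_, _, _, rfl⟩
  obtain ⟨i, j, k, rfl⟩ := key
  refine ⟨i % 3, j % 3, k % 3, Nat.mod_lt _ (by norm_num), Nat.mod_lt _ (by norm_num),
    Nat.mod_lt _ (by norm_num), ?_⟩
  rw [← pow_eq_pow_mod i hu, ← pow_eq_pow_mod j hv, ← pow_eq_pow_mod k hd]

/-- The count modulo 27. -/
theorem dvd_27 {y u v d : T} (hy : y ≠ 1) (hu : u ^ 3 = 1) (hv : v ^ 3 = 1) (hd : d ^ 3 = 1)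
    (hrel : v * u = u * v * d) (hdu : d * u = u * d) (hdv : d * v = v * d) (hd1 : d ≠ 1)
    (hwit : ∀ i j k : ℕ, i < 3 → j < 3 → k < 3 → (i, j, k) ≠ (0, 0, 0) →
      ∃ g : T, g * y * g⁻¹ = u ^ i * v ^ j * d ^ k) :
    27 ∣ Fintype.card Ω + 26 * fx Ω y := by
  classical
  set P := Subgroup.closure ({u, v} : Set T) with hP
  have huP : u ∈ P := Subgroup.subset_closure (by simp)
  have hvP : v ∈ P := Subgroup.subset_closure (by simp)
  -- every nonidentity element is conjugate to `y`
  have hconj : ∀ r ∈ P, r ≠ 1 → ∃ g : T, g * y * g⁻¹ = r := by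
    intro r hr hr1
    obtain ⟨i, j, k, hi, hj, hk, rfl⟩ := mem_closure_normal hu hv hd hrel hdu hdv hr
    apply hwit i j k hi hj hk
    rintro h
    simp only [Prod.mk.injEq] at h
    obtain ⟨rfl, rfl, rfl⟩ := h
    exact hr1 (by simp)
  have hy3 : y ^ 3 = 1 := by
    have hu1 : u ≠ 1 := by
      rintro rfl
      apply hd1
      simpa using hrel
    obtain ⟨g, hg⟩ := hconj u huP hu1
    have : g * y ^ 3 * g⁻¹ = 1 := by
      have e : g * y ^ 3 * g⁻¹ = (g * y * g⁻¹) ^ 3 := conj_pow.symm
      rw [e, hg, hu]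
    have h2 : y ^ 3 = g⁻¹ * (g * y ^ 3 * g⁻¹) * g := by group
    rw [h2, this]
    group
  have hcube : ∀ r : P, r ^ 3 = 1 := by
    rintro ⟨r, hr⟩
    by_cases hr1 : r = 1
    · subst hr1; ext; simp
    · obtain ⟨g, hg⟩ := hconj r hr hr1
      ext
      simp only [SubmonoidClass.mk_pow, OneMemClass.coe_one]
      rw [← hg]
      have e : (g * y * g⁻¹) ^ 3 = g * y ^ 3 * g⁻¹ := conj_pow
      rw [e, hy3]
      group
  haveI : Fact (Nat.Prime 3) := ⟨by norm_num⟩
  have hp : IsPGroup 3 P := fun r => ⟨1, by simpa using hcube r⟩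
  -- the order is at most 27
  have hle : Nat.card P ≤ 27 := by
    have hs : Function.Surjective (fun q : {q : Fin 3 × Fin 3 × Fin 3 //
        u ^ (q.1 : ℕ) * v ^ (q.2.1 : ℕ) * d ^ (q.2.2 : ℕ) ∈ P} =>
        (⟨_, q.2⟩ : P)) := by
      rintro ⟨r, hr⟩
      obtain ⟨i, j, k, hi, hj, hk, rfl⟩ := mem_closure_normal hu hv hd hrel hdu hdv hr
      exact ⟨⟨(⟨i, hi⟩, ⟨j, hj⟩, ⟨k, hk⟩), hr⟩, rfl⟩
    have h1 := Nat.card_le_card_of_surjective _ hs
    have h2 : Nat.card {q : Fin 3 × Fin 3 × Fin 3 //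
        u ^ (q.1 : ℕ) * v ^ (q.2.1 : ℕ) * d ^ (q.2.2 : ℕ) ∈ P} ≤ Nat.card (Fin 3 × Fin 3 × Fin 3) :=
      Nat.card_le_card_of_injective _ Subtype.val_injective
    have h3 : Nat.card (Fin 3 × Fin 3 × Fin 3) = 27 := by simp
    omega
  -- and it is not commutative
  have hnc : ¬ ∀ a b : P, a * b = b * a := by
    intro h
    have := h ⟨v, hvP⟩ ⟨u, huP⟩
    have h2 : v * u = u * v := congrArg Subtype.val this
    rw [hrel] at h2
    exact hd1 (by simpa using h2)
  have hcard : Nat.card P = 27 := by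
    obtain ⟨m, hm⟩ := IsPGroup.iff_card.mp hp
    have hm3 : m ≤ 3 := by
      by_contra hc
      have : 3 ^ 4 ≤ 3 ^ m := Nat.pow_le_pow_right (by norm_num) (by omega)
      omega
    have hm3' : m = 3 := by
      by_contra hc
      apply hnc
      have hm2 : m ≤ 2 := by omega
      interval_cases m
      · haveI : Subsingleton P := (Nat.card_eq_one_iff_unique.mp (by simpa using hm)).1
        intro a b
        exact Subsingleton.elim _ _
      · haveI : Fact (Nat.Prime (Nat.card P)) := ⟨by rw [hm]; norm_num⟩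
        haveI : IsCyclic P := isCyclic_of_prime_card rfl
        intro a b
        exact mul_comm' a b
      · exact fun a b => (IsPGroup.isMulCommutative_of_card_eq_prime_sq hm).is_comm.comm a b
    rw [hm, hm3']
    norm_num
  -- Burnside
  haveI : Fintype P := Fintype.ofFinite P
  have hB := MulAction.sum_card_fixedBy_eq_card_orbits_mul_card_group P Ω
  have hfix : ∀ r : P, Fintype.card (fixedBy Ω r) = fx Ω (r : T) := by
    intro r
    rw [← Nat.card_eq_fintype_card]
    rfl
  simp only [hfix] at hB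
  have hsum : ∑ r : P, fx Ω (r : T) = Fintype.card Ω + 26 * fx Ω y := by
    rw [← Finset.add_sum_erase _ _ (Finset.mem_univ (1 : P))]
    have h1 : fx Ω ((1 : P) : T) = Fintype.card Ω := by
      unfold fx
      rw [← Nat.card_eq_fintype_card]
      exact Nat.card_congr (Equiv.subtypeUnivEquiv (fun ω => by simp))
    rw [h1]
    congr 1
    rw [Finset.sum_congr rfl (g := fun _ => fx Ω y)]
    · rw [Finset.sum_const, Finset.card_erase_of_mem (Finset.mem_univ _), Finset.card_univ,
        ← Nat.card_eq_fintype_card, hcard]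
      simp
    · intro r hr
      have hr1 : (r : T) ≠ 1 := by
        intro h
        apply (Finset.mem_erase.mp hr).1
        exact Subtype.ext h
      obtain ⟨g, hg⟩ := hconj r r.2 hr1
      exact fx_conj g y r hg
  rw [hsum, ← Nat.card_eq_fintype_card (α := P), hcard] at hB
  exact ⟨_, by rw [hB, mul_comm]⟩

/-- The count for a subgroup `13 : 3`. -/
theorem x_part {x y : T} (hx : orderOf x = 13) (hy : y * x * y⁻¹ = x ^ 3)
    (hfix : ∀ p q : Ω, x • p = p → x • q = q → p = q) :
    13 * fx Ω y ≤ Fintype.card Ω + 12 ∧ (¬ 13 ∣ Fintype.card Ω → 1 ≤ fx Ω y) := by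
  classical
  haveI : Fact (Nat.Prime 13) := ⟨by norm_num⟩
  set X := Subgroup.zpowers x with hX
  have hXc : Nat.card X = 13 := by rw [Nat.card_zpowers, hx]
  have hgen : ∀ g ∈ X, g ≠ 1 → ∀ ω : Ω, g • ω = ω → x • ω = ω := by
    intro g hg hg1 ω hω
    have hle : Subgroup.zpowers g ≤ X := (Subgroup.zpowers_le).mpr hg
    have hdv : Nat.card (Subgroup.zpowers g) ∣ 13 := by
      rw [← hXc]
      exact Subgroup.card_dvd_of_le hle
    have hne : Nat.card (Subgroup.zpowers g) ≠ 1 := by
      rw [Nat.card_zpowers]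
      intro h
      exact hg1 (orderOf_eq_one_iff.mp h)
    have hc : Nat.card (Subgroup.zpowers g) = 13 :=
      ((Nat.dvd_prime (by norm_num)).mp hdv).resolve_left hne
    have heq : Subgroup.zpowers g = X := Subgroup.eq_of_le_of_card_ge hle (by rw [hc, hXc])
    have hxm : x ∈ Subgroup.zpowers g := by
      rw [heq]
      exact Subgroup.mem_zpowers x
    have hst : Subgroup.zpowers g ≤ MulAction.stabilizer T ω :=
      (Subgroup.zpowers_le).mpr hω
    exact hst hxm
  have hgen' : ∀ g ∈ X, ∀ ω : Ω, x • ω = ω → g • ω = ω := by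
    intro g hg ω hω
    have hst : X ≤ MulAction.stabilizer T ω := (Subgroup.zpowers_le).mpr hω
    exact hst hg
  have hfxg : ∀ g : X, g ≠ 1 → fx Ω (g : T) = fx Ω x := by
    intro g hg
    have hg1 : (g : T) ≠ 1 := fun h => hg (Subtype.ext h)
    unfold fx
    exact Nat.card_congr (Equiv.subtypeEquivRight fun ω => ⟨hgen g g.2 hg1 ω, hgen' g g.2 ω⟩)
  have ha : fx Ω x ≤ 1 := by
    unfold fx
    haveI : Subsingleton {ω : Ω // x • ω = ω} := ⟨fun p q => Subtype.ext (hfix _ _ p.2 q.2)⟩
    exact Finite.card_le_one_iff_subsingleton.mpr this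
  haveI : Fintype X := Fintype.ofFinite X
  have hB := MulAction.sum_card_fixedBy_eq_card_orbits_mul_card_group X Ω
  have hfix' : ∀ r : X, Fintype.card (fixedBy Ω r) = fx Ω (r : T) := by
    intro r
    rw [← Nat.card_eq_fintype_card]
    rfl
  simp only [hfix'] at hB
  have hsum : ∑ r : X, fx Ω (r : T) = Fintype.card Ω + 12 * fx Ω x := by
    rw [← Finset.add_sum_erase _ _ (Finset.mem_univ (1 : X))]
    have h1 : fx Ω ((1 : X) : T) = Fintype.card Ω := by
      unfold fx
      rw [← Nat.card_eq_fintype_card]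
      exact Nat.card_congr (Equiv.subtypeUnivEquiv (fun ω => by simp))
    rw [h1]
    congr 1
    rw [Finset.sum_congr rfl (g := fun _ => fx Ω x)]
    · rw [Finset.sum_const, Finset.card_erase_of_mem (Finset.mem_univ _), Finset.card_univ,
        ← Nat.card_eq_fintype_card, hXc]
      simp
    · intro r hr
      exact hfxg r (Finset.mem_erase.mp hr).1
  rw [hsum, ← Nat.card_eq_fintype_card (α := X), hXc,
    ← Nat.card_eq_fintype_card (α := Quotient (orbitRel X Ω))] at hB
  -- fixed points of `y` inject in the orbits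
  have hinj : fx Ω y ≤ Nat.card (Quotient (orbitRel X Ω)) := by
    unfold fx
    refine Nat.card_le_card_of_injective
      (fun ω : {ω : Ω // y • ω = ω} => (Quotient.mk'' ω.1 : Quotient (orbitRel X Ω))) ?_
    rintro ⟨p, hp⟩ ⟨q, hq⟩ h
    have h' : p ∈ orbit X q := by
      have := Quotient.eq''.mp h
      exact this
    obtain ⟨⟨g, hg⟩, hgq⟩ := h'
    have hgq' : g • q = p := hgq
    obtain ⟨k, rfl⟩ := Subgroup.mem_zpowers_iff.mp hg
    set g := x ^ k with hgdef
    have hconj : y * g * y⁻¹ = g ^ 3 := by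
      rw [hgdef, ← conj_zpow, hy, ← zpow_natCast, ← zpow_natCast, ← zpow_mul, ← zpow_mul, mul_comm]
    have h1 : g ^ 3 • q = g • q := by
      have e1 : y • (g • q) = (y * g * y⁻¹) • (y • q) := by
        rw [smul_smul, smul_smul, mul_assoc, mul_assoc, inv_mul_cancel, mul_one]
      rw [hq, hconj, hgq', hp] at e1
      rw [← e1, hgq']
    have hg13 : g ^ 13 = 1 := by
      rw [hgdef, ← zpow_natCast, ← zpow_mul, mul_comm, zpow_mul, zpow_natCast, ← hx, pow_orderOf_eq_one,
        one_zpow]
    have h2 : g ^ 2 • q = q := by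
      have e : g ^ 3 = g * g ^ 2 := by rw [pow_succ' g 2]
      rw [e, mul_smul] at h1
      exact smul_left_cancel g h1
    have h3 : g • q = q := by
      have hst : Subgroup.zpowers (g ^ 2) ≤ MulAction.stabilizer T q := (Subgroup.zpowers_le).mpr h2
      have hmem : g ∈ Subgroup.zpowers (g ^ 2) := by
        refine ⟨(7 : ℤ), ?_⟩
        have : g ^ 14 = g := by rw [pow_succ, hg13, one_mul]
        simp only
        rw [zpow_ofNat, ← pow_mul]
        exact this
      exact hst hmem
    have hpq : p = q := by rw [← hgq', h3]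
    exact Subtype.ext hpq
  constructor
  · omega
  · intro hn
    have ha0 : fx Ω x ≠ 0 := by
      intro h0
      rw [h0] at hB
      apply hn
      exact ⟨_, by rw [Nat.mul_zero, Nat.add_zero] at hB; rw [hB, mul_comm]⟩
    have hne : Nonempty {ω : Ω // x • ω = ω} := by
      by_contra hc
      rw [not_nonempty_iff] at hc
      exact ha0 (by unfold fx; exact Nat.card_of_isEmpty)
    obtain ⟨⟨p, hp⟩⟩ := hne
    have h1 : x ^ 3 • (y • p) = y • p := by
      rw [← hy, smul_smul, mul_assoc, mul_assoc, inv_mul_cancel, mul_one, mul_smul, hp]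
    have h2 : x • (y • p) = y • p := by
      have hst : Subgroup.zpowers (x ^ 3) ≤ MulAction.stabilizer T (y • p) :=
        (Subgroup.zpowers_le).mpr h1
      have hmem : x ∈ Subgroup.zpowers (x ^ 3) := by
        refine ⟨(9 : ℤ), ?_⟩
        have h13 : x ^ 13 = 1 := by rw [← hx, pow_orderOf_eq_one]
        have : x ^ 27 = x := by
          have e : (27 : ℕ) = 13 * 2 + 1 := by norm_num
          rw [e, pow_succ, pow_mul, h13, one_pow, one_mul]
        simp only
        rw [zpow_ofNat, ← pow_mul]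
        exact this
      exact hst hmem
    have h3 : y • p = p := hfix _ _ h2 hp
    unfold fx
    haveI : Nonempty {ω : Ω // y • ω = ω} := ⟨⟨p, h3⟩⟩
    exact Nat.card_pos

/-- Run a test on an interval, with small recursion depth. -/
def allIn (P : ℕ → Bool) : ℕ → ℕ → Bool
  | 0, b => P b
  | d + 1, b => allIn P d b && allIn P d (b + 2 ^ d)

lemma allIn_spec (P : ℕ → Bool) (d b : ℕ) (h : allIn P d b = true) (m : ℕ) (hm : m < 2 ^ d) :
    P (b + m) = true := by
  induction d generalizing b m with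
  | zero =>
    have : m = 0 := by simpa using hm
    subst this
    simpa [allIn] using h
  | succ d ih =>
    simp only [allIn, Bool.and_eq_true] at h
    by_cases hm2 : m < 2 ^ d
    · exact ih b h.1 m hm2
    · have e : b + m = b + 2 ^ d + (m - 2 ^ d) := by omega
      rw [e]
      exact ih _ h.2 _ (by rw [pow_succ] at hm; omega)

/-- The degrees allowed by the order. -/
lemma degrees (n : ℕ) (hn : n < 8192) (h3 : 3 ≤ n) (h : n * (n - 1) ∣ 2 ^ 12 * 3 ^ 3 * 5 ^ 2 * 13) :
    n < 27 ∨ n = 27 ∨ n = 40 ∨ n = 65 := by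
  have key : allIn (fun n => decide (3 ≤ n → n * (n - 1) ∣ 2 ^ 12 * 3 ^ 3 * 5 ^ 2 * 13 →
      n < 27 ∨ n = 27 ∨ n = 40 ∨ n = 65)) 13 0 = true := by
    decide +kernel
  have := allIn_spec _ 13 0 key n (by norm_num; omega)
  simp only [zero_add, decide_eq_true_eq] at this
  exact this h3 h

/-- The main obstruction. -/
theorem main [FaithfulSMul T Ω] (hΩ : 3 ≤ Fintype.card Ω)
    (hN : Nat.card T ∣ 2 ^ 12 * 3 ^ 3 * 5 ^ 2 * 13)
    {y₀ y₁ x u v d : T} (hy : y₀ ≠ 1) (hx : orderOf x = 13) (hyx : y₁ * x * y₁⁻¹ = x ^ 3)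
    (hy01 : ∃ g : T, g * y₀ * g⁻¹ = y₁)
    (hu : u ^ 3 = 1) (hv : v ^ 3 = 1) (hd : d ^ 3 = 1)
    (hrel : v * u = u * v * d) (hdu : d * u = u * d) (hdv : d * v = v * d) (hd1 : d ≠ 1)
    (hwit : ∀ i j k : ℕ, i < 3 → j < 3 → k < 3 → (i, j, k) ≠ (0, 0, 0) →
      ∃ g : T, g * y₀ * g⁻¹ = u ^ i * v ^ j * d ^ k) :
    ¬ MulAction.IsMultiplyPretransitive T Ω 2 := by
  classical
  intro h2
  haveI : MulAction.IsPretransitive T (Fin 2 ↪ Ω) := h2
  set n := Fintype.card Ω with hn
  have hstab : ∀ e : Fin 2 ↪ Ω, n * (n - 1) * Nat.card (MulAction.stabilizer T e) = Nat.card T := by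
    intro e
    have h1 : Nat.card (orbit T e) * Nat.card (stabilizer T e) = Nat.card T := by
      rw [Nat.card_congr (MulAction.orbitEquivQuotientStabilizer T e)]
      exact (Subgroup.card_eq_card_quotient_mul_card_subgroup _).symm
    rw [MulAction.orbit_eq_univ T e] at h1
    have h3 : Nat.card (Set.univ : Set (Fin 2 ↪ Ω)) = n * (n - 1) := by
      rw [Nat.card_congr (Equiv.Set.univ _), Nat.card_eq_fintype_card, Fintype.card_embedding_eq]
      simp [Nat.descFactorial, ← hn]
      ring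
    rw [h3] at h1
    exact h1
  have hne : Nontrivial Ω := Fintype.one_lt_card_iff_nontrivial.mp (by omega)
  obtain ⟨p₀, q₀, hpq⟩ := exists_pair_ne Ω
  let mkE : ∀ p q : Ω, p ≠ q → (Fin 2 ↪ Ω) := fun p q h =>
    ⟨![p, q], by
      intro i j hij
      fin_cases i <;> fin_cases j <;> simp_all⟩
  have hdvd : n * (n - 1) ∣ 2 ^ 12 * 3 ^ 3 * 5 ^ 2 * 13 :=
    dvd_trans ⟨_, (hstab (mkE p₀ q₀ hpq)).symm⟩ hN
  have hltN : n < 6000 := by
    have hle := Nat.le_of_dvd (by norm_num) hdvd
    by_contra hc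
    have h6 : 6000 ≤ n := by omega
    have h7 : 6000 * 5999 ≤ n * (n - 1) := Nat.mul_le_mul h6 (by omega)
    norm_num at hle h7
    omega
  have hcase := degrees n (by omega) hΩ hdvd
  have h27 : 27 ∣ n + 26 * fx Ω y₀ := dvd_27 hy hu hv hd hrel hdu hdv hd1 hwit
  have hfnot : fx Ω y₀ < n := by
    by_contra hc
    apply hy
    have hall : ∀ ω : Ω, y₀ • ω = ω := by
      by_contra hall
      obtain ⟨ω, hω⟩ := not_forall.mp hall
      have : Fintype.card {ω : Ω // y₀ • ω = ω} < Fintype.card Ω :=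
        Fintype.card_subtype_lt hω
      rw [← Nat.card_eq_fintype_card] at this
      exact hc this
    exact FaithfulSMul.eq_of_smul_eq_smul (α := Ω) (fun ω => by rw [hall, one_smul])
  have hf01 : fx Ω y₁ = fx Ω y₀ := by
    obtain ⟨g, hg⟩ := hy01
    exact fx_conj g y₀ y₁ hg
  have hbig : (n = 27 ∨ n = 40 ∨ n = 65) → False := by
    intro hcase
    have hfix : ∀ p q : Ω, x • p = p → x • q = q → p = q := by
      intro p q hp hq
      by_contra hc
      have hmem : x ∈ MulAction.stabilizer T (mkE p q hc) := by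
        rw [MulAction.mem_stabilizer_iff]
        ext i
        fin_cases i
        · exact hp
        · exact hq
      have h13 : 13 ∣ Nat.card (MulAction.stabilizer T (mkE p q hc)) := by
        rw [← hx]
        exact Subgroup.orderOf_dvd_natCard _ hmem
      have h3 := hstab (mkE p q hc)
      have h4 : n * (n - 1) * 13 ∣ 2 ^ 12 * 3 ^ 3 * 5 ^ 2 * 13 := by
        refine dvd_trans ?_ hN
        rw [← h3]
        exact Nat.mul_dvd_mul_left _ h13
      rcases hcase with h | h | h <;> rw [h] at h4 <;> revert h4 <;> decide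
    obtain ⟨hle, hge⟩ := x_part (Ω := Ω) hx hyx hfix
    rw [hf01] at hle hge
    rcases hcase with h | h | h
    · have : ¬ 13 ∣ Fintype.card Ω := by rw [← hn, h]; decide
      have := hge this
      omega
    · omega
    · omega
  rcases hcase with h | h | h | h
  · show False
    have h' : n < 27 := h
    omega
  · exact hbig (Or.inl h)
  · exact hbig (Or.inr (Or.inl h))
  · exact hbig (Or.inr (Or.inr h))

end Cfsg.Agent.Lib.Contrib.Tits.Abs
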