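import Cfsg.Agent.Lib.F24.WordEq
import Cfsg.Agent.S1068
import Cfsg.Agent.Lib.Contrib.Tits.Abs

/-!
# The Tits group has no doubly transitive action

Explicit words in four involutions of the commutator subgroup of `²F₄(2)`, checked by running them
on the coded basis vectors of the adjoint representation of `F₄` over `ZMod 2`.
-/

set_option autoImplicit false
set_option linter.unusedSectionVars false
set_option linter.unusedVariables false
set_option linter.ambiguousOpen false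

namespace Cfsg.Agent.Lib.Contrib.Tits.Data

open scoped MatrixGroups Matrix
open Cfsg _root_.Cfsg.Lie ChevalleyDatum
open Cfsg.Agent.Lib.Twisted.Sparse Cfsg.Agent.Lib.Twisted.Eval
open Cfsg.Agent.Lib.F24.WordEq
open _root_.Cfsg.Agent.Lib.PermComp.Core
open scoped commutatorElement

/-- Words in root elements over the field with two elements. -/
abbrev Wd := List (ℕ × ZMod 2)

/-- The matrix of a word. -/
noncomputable abbrev M (w : Wd) : Matrix chevF4.Idx chevF4.Idx (ZMod 2) := chevF4.wordMat (ZMod 2) w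

lemma M_nil : M [] = 1 := by simp [M, wordMat]

lemma M_cons (a : ℕ × ZMod 2) (w : Wd) : M (a :: w) = chevF4.x (ZMod 2) a.1 a.2 * M w := by
  simp [M, wordMat]

lemma M_append (a b : Wd) : M (a ++ b) = M a * M b := by
  simp [M, wordMat, List.prod_append]

set_option maxRecDepth 100000 in
theorem chk_sq : ∀ r : Fin 48, ∀ t : ZMod 2,
    wordCheck chevF4 (lettersOf ([(r.1, t), (r.1, t)] : Wd)) (lettersOf ([] : Wd)) = true := by
  decide +kernel

lemma x_sq (r : ℕ) (t : ZMod 2) : chevF4.x (ZMod 2) r t * chevF4.x (ZMod 2) r t = 1 := by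
  by_cases h : r < 48
  · have := word_eq_zmod chevF4 ([(r, t), (r, t)] : Wd) ([] : Wd) (chk_sq ⟨r, h⟩ t)
    simpa [wordMat] using this
  · have h' : ¬ r < chevF4.nroots := h
    simp [ChevalleyDatum.x, h']

lemma M_mul_rev (w : Wd) : M w * M w.reverse = 1 := by
  induction w with
  | nil => simp [M_nil]
  | cons a w ih =>
    rw [List.reverse_cons, M_append, M_cons, M_cons, M_nil, mul_one]
    calc chevF4.x (ZMod 2) a.1 a.2 * M w * (M w.reverse * chevF4.x (ZMod 2) a.1 a.2)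
        = chevF4.x (ZMod 2) a.1 a.2 * (M w * M w.reverse) * chevF4.x (ZMod 2) a.1 a.2 := by
          simp only [mul_assoc]
      _ = 1 := by rw [ih, mul_one, x_sq]

/-- The invertible matrix of a word. -/
noncomputable def U (w : Wd) : GL chevF4.Idx (ZMod 2) :=
  ⟨M w, M w.reverse, M_mul_rev w, by simpa using M_mul_rev w.reverse⟩

lemma U_val (w : Wd) : ((U w : GL chevF4.Idx (ZMod 2)) : Matrix chevF4.Idx chevF4.Idx (ZMod 2)) = M w := rfl

lemma U_append (a b : Wd) : U (a ++ b) = U a * U b := Units.ext (by simp [U_val, M_append])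

lemma U_nil : U [] = 1 := Units.ext (by simp [U_val, M_nil])

lemma U_reverse (a : Wd) : U a.reverse = (U a)⁻¹ := by
  apply Units.ext
  rw [U_val]
  rfl

lemma U_eq {a b : Wd} (h : wordCheck chevF4 (lettersOf a) (lettersOf b) = true) : U a = U b :=
  Units.ext (word_eq_zmod chevF4 a b h)

/-- The words generating `²F₄(2)`. -/
def lA : Wd := [(33, 1), (24, 1)]
def lB : Wd := [(14, 1), (23, 1)]
def lC : Wd := [(27, 1), (25, 1), (28, 1), (30, 0)]
def lD : Wd := [(27, 0), (25, 0), (28, 1), (30, 1)]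
def lF : Wd := [(20, 1), (22, 1), (19, 1), (17, 0)]
def lG : Wd := [(20, 0), (22, 0), (19, 1), (17, 1)]

lemma lA_mem : lA ∈ f4Words (ZMod 2) 1 := Or.inl ⟨1, Or.inl (by decide)⟩
lemma lB_mem : lB ∈ f4Words (ZMod 2) 1 := Or.inl ⟨1, Or.inr (by decide)⟩
lemma lC_mem : lC ∈ f4Words (ZMod 2) 1 := Or.inr ⟨1, 0, Or.inl (by decide)⟩
lemma lD_mem : lD ∈ f4Words (ZMod 2) 1 := Or.inr ⟨0, 1, Or.inl (by decide)⟩
lemma lF_mem : lF ∈ f4Words (ZMod 2) 1 := Or.inr ⟨1, 0, Or.inr (by decide)⟩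
lemma lG_mem : lG ∈ f4Words (ZMod 2) 1 := Or.inr ⟨0, 1, Or.inr (by decide)⟩

/-- The six letters. -/
def l6 : Fin 6 → Wd
  | 0 => lA
  | 1 => lB
  | 2 => lC
  | 3 => lD
  | 4 => lF
  | 5 => lG

lemma U_mem_of_word {w : Wd} (h : w ∈ f4Words (ZMod 2) 1) : U w ∈ twistedF4 (ZMod 2) 1 :=
  Subgroup.subset_closure ⟨w, h, rfl⟩

lemma l6_mem (i : Fin 6) : l6 i ∈ f4Words (ZMod 2) 1 := by
  fin_cases i
  · exact lA_mem
  · exact lB_mem
  · exact lC_mem
  · exact lD_mem
  · exact lF_mem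
  · exact lG_mem

/-- Signed words in the six letters. -/
def exS (w : List (Fin 6 × Bool)) : Wd :=
  w.flatMap fun s => if s.2 then (l6 s.1).reverse else l6 s.1

lemma U_exS_mem (w : List (Fin 6 × Bool)) : U (exS w) ∈ twistedF4 (ZMod 2) 1 := by
  induction w with
  | nil => 
    have : exS [] = [] := rfl
    rw [this, U_nil]
    exact Subgroup.one_mem _
  | cons s w ih =>
    have : exS (s :: w) = (if s.2 then (l6 s.1).reverse else l6 s.1) ++ exS w := by
      simp [exS]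
    rw [this, U_append]
    refine Subgroup.mul_mem _ ?_ ih
    split_ifs
    · rw [U_reverse]
      exact Subgroup.inv_mem _ (U_mem_of_word (l6_mem _))
    · exact U_mem_of_word (l6_mem _)

/-- The Tits group as a type. -/
abbrev T := TitsGroup

lemma exT (p q : List (Fin 6 × Bool)) (wa : Wd)
    (h : wordCheck chevF4 (lettersOf wa)
      (lettersOf (exS p ++ exS q ++ (exS p).reverse ++ (exS q).reverse)) = true) :
    ∃ t : T, (((t : twistedF4 (ZMod 2) 1)) : GL chevF4.Idx (ZMod 2)) = U wa := by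
  refine ⟨⟨⁅(⟨U (exS p), U_exS_mem p⟩ : twistedF4 (ZMod 2) 1), ⟨U (exS q), U_exS_mem q⟩⁆,
    Subgroup.commutator_mem_commutator trivial trivial⟩, ?_⟩
  rw [U_eq h, U_append, U_append, U_append, U_reverse, U_reverse]
  rfl

/-- The signed letters: the upper case ones are the letters, the lower case ones their inverses. -/
def sA : Fin 6 × Bool := (0, false)
def sB : Fin 6 × Bool := (1, false)
def sC : Fin 6 × Bool := (2, false)
def sD : Fin 6 × Bool := (3, false)
def sF : Fin 6 × Bool := (4, false)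
def sG : Fin 6 × Bool := (5, false)
def sa : Fin 6 × Bool := (0, true)
def sb : Fin 6 × Bool := (1, true)
def sc : Fin 6 × Bool := (2, true)
def sd : Fin 6 × Bool := (3, true)
def sf : Fin 6 × Bool := (4, true)
def sg : Fin 6 × Bool := (5, true)

/-- The four generators of the Tits group. -/
def l4 : Fin 4 → Wd
  | 0 => lA
  | 1 => lB
  | 2 => lD
  | 3 => lG

set_option maxRecDepth 100000 in
theorem chk_tA : wordCheck chevF4 (lettersOf lA)
    (lettersOf (exS [sB, sA, sC, sA, sB] ++ exS [sF] ++ (exS [sB, sA, sC, sA, sB]).reverse ++ (exS [sF]).reverse)) = true := by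
  decide +kernel

set_option maxRecDepth 100000 in
theorem chk_tB : wordCheck chevF4 (lettersOf lB)
    (lettersOf (exS [sA, sB, sF, sB, sA] ++ exS [sC] ++ (exS [sA, sB, sF, sB, sA]).reverse ++ (exS [sC]).reverse)) = true := by
  decide +kernel

set_option maxRecDepth 100000 in
theorem chk_tD : wordCheck chevF4 (lettersOf lD)
    (lettersOf (exS [sg, sc, sb, sA, sC, sA, sB, sC, sG] ++ exS [sB] ++ (exS [sg, sc, sb, sA, sC, sA, sB, sC, sG]).reverse ++ (exS [sB]).reverse)) = true := by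
  decide +kernel

set_option maxRecDepth 100000 in
theorem chk_tG : wordCheck chevF4 (lettersOf lG)
    (lettersOf (exS [sd, sf, sa, sB, sF, sB, sA, sF, sD] ++ exS [sA] ++ (exS [sd, sf, sa, sB, sF, sB, sA, sF, sD]).reverse ++ (exS [sA]).reverse)) = true := by
  decide +kernel

lemma exT4 (i : Fin 4) : ∃ t : T, (((t : twistedF4 (ZMod 2) 1)) : GL chevF4.Idx (ZMod 2)) = U (l4 i) := by
  fin_cases i
  · exact exT _ _ _ chk_tA
  · exact exT _ _ _ chk_tB
  · exact exT _ _ _ chk_tD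
  · exact exT _ _ _ chk_tG

/-- The four generators. -/
noncomputable def tg (i : Fin 4) : T := (exT4 i).choose

lemma tg_spec (i : Fin 4) : (((tg i : twistedF4 (ZMod 2) 1)) : GL chevF4.Idx (ZMod 2)) = U (l4 i) :=
  (exT4 i).choose_spec

/-- Evaluation of words in the generators. -/
noncomputable def evT (w : List (Fin 4)) : T := (w.map tg).prod

/-- Expansion into root elements. -/
def ex4 (w : List (Fin 4)) : Wd := w.flatMap l4

lemma evT_val (w : List (Fin 4)) :
    (((evT w : twistedF4 (ZMod 2) 1)) : GL chevF4.Idx (ZMod 2)) = U (ex4 w) := by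
  induction w with
  | nil => 
    have h : ex4 [] = [] := rfl
    rw [h, U_nil]
    rfl
  | cons i w ih =>
    have h : ex4 (i :: w) = l4 i ++ ex4 w := by simp [ex4]
    have h2 : evT (i :: w) = tg i * evT w := by simp [evT]
    rw [h, h2, U_append, ← ih, ← tg_spec]
    rfl

lemma evT_append (a b : List (Fin 4)) : evT (a ++ b) = evT a * evT b := by
  simp [evT, List.prod_append]

lemma evT_nil : evT [] = 1 := rfl

lemma evT_inj {a b : List (Fin 4)} (h : U (ex4 a) = U (ex4 b)) : evT a = evT b := by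
  apply Subtype.ext
  apply Subtype.ext
  rw [evT_val, evT_val, h]

lemma evT_eq {a b : List (Fin 4)}
    (h : wordCheck chevF4 (lettersOf (ex4 a)) (lettersOf (ex4 b)) = true) : evT a = evT b :=
  evT_inj (U_eq h)

/-- Powers of a word. -/
def pw (w : List (Fin 4)) : ℕ → List (Fin 4)
  | 0 => []
  | k + 1 => pw w k ++ w

lemma evT_pw (w : List (Fin 4)) (k : ℕ) : evT (pw w k) = evT w ^ k := by
  induction k with
  | zero => rfl
  | succ k ih => rw [pw, evT_append, ih, pow_succ]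

/-- A nonzero off-diagonal entry shows that a word is not the identity. -/
theorem evT_ne_one (w : List (Fin 4)) (hW : ((ex4 w).all fun l => okRoot chevF4 l.1) = true)
    (b c : chevF4.Idx) (hbc : b ≠ c)
    (hbit : app 1 1 (applyTs 2 1 1 (tablesOf chevF4 2 (lettersOf (ex4 w))) (2 ^ idxN chevF4 c))
      (idxN chevF4 b) = 1) : evT w ≠ 1 := by
  intro h1
  have hU : U (ex4 w) = 1 := by rw [← evT_val, h1]; rfl
  have hM : M (ex4 w) = 1 := by
    have := congrArg (fun g : GL chevF4.Idx (ZMod 2) => (g : Matrix chevF4.Idx chevF4.Idx (ZMod 2))) hU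
    simpa [U_val] using this
  have hm : (1 : ℕ) = 2 ^ 1 - 1 := by norm_num
  have hp : (2 : ℕ) ≤ 2 ^ 1 := by norm_num
  have hW' : ∀ l ∈ ex4 w, okRoot chevF4 l.1 = true := by
    simpa [List.all_eq_true] using hW
  have e := congrFun (mulVec_word (D := chevF4) (p := 2) hm hp (ex4 w) hW' (2 ^ idxN chevF4 c)) b
  have hM' : chevF4.wordMat (ZMod 2) (ex4 w) = 1 := hM
  rw [hM', Matrix.one_mulVec, vec_basis, if_neg (fun h => hbc (idxN_inj chevF4 h))] at e
  have e2 : vec 2 1 1 (applyTs 2 1 1 (tablesOf chevF4 2 (lettersOf (ex4 w))) (2 ^ idxN chevF4 c))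
      (idxN chevF4 b) = 1 := by
    unfold vec
    rw [hbit]
    simp
  rw [e2] at e
  exact absurd e (by decide)

/-- The words of the proof. -/
def wY0 : List (Fin 4) := [0, 1]
def wX : List (Fin 4) := [0, 1, 2, 3]
def wY1 : List (Fin 4) := [1, 0, 2, 3, 2, 1, 3, 1, 3, 1, 3, 2, 0, 2, 0, 2, 3, 1, 2]
def wGY : List (Fin 4) := [1, 0, 2, 0, 2, 3, 2, 3, 1, 0, 3, 1, 2, 0, 3]
def wU : List (Fin 4) := [2, 3, 2, 0, 3, 1, 3, 2, 3, 2]
def wV : List (Fin 4) := [0, 1, 2, 0, 2, 3, 1, 3, 1, 0]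
def wD : List (Fin 4) := [0, 1, 3, 1, 3, 2, 0, 2, 1, 0, 2, 3, 2, 3, 1, 3, 0, 2, 3, 2, 0, 1, 2, 0, 2, 3, 1, 3, 1, 0, 2, 3, 2, 0, 3, 1, 3, 2, 3, 2]

/-- The conjugating elements. -/
def wWit : ℕ → ℕ → ℕ → List (Fin 4)
  | 0, 0, 1 => [0, 3, 1, 0, 2, 3, 2, 3, 1, 2]
  | 0, 0, 2 => [0, 3, 1, 0, 2, 3, 2, 3, 2]
  | 0, 1, 0 => [0, 2, 3, 0, 2, 3, 1, 2, 3, 1, 3, 2, 3, 1, 2]
  | 0, 1, 1 => [2, 0, 2, 0, 3, 1, 0, 3, 2, 0, 3, 2, 0, 3]
  | 0, 1, 2 => [1, 2, 3, 2, 0, 2, 0, 2, 3, 2, 3]
  | 0, 2, 0 => [0, 2, 0, 3, 2, 3, 1, 2, 3, 1, 3, 2, 3, 2]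
  | 0, 2, 1 => [1, 2, 3, 2, 0, 2, 0, 2, 3, 2, 0, 3]
  | 0, 2, 2 => [2, 0, 2, 0, 3, 1, 0, 3, 2, 0, 3, 2, 3]
  | 1, 0, 0 => [2, 3, 2, 3]
  | 1, 0, 1 => [0, 2, 1, 0, 2, 3, 1, 3, 1, 0, 2, 3, 2, 3]
  | 1, 0, 2 => [0, 1, 3, 1, 3, 2, 0, 1, 2, 0, 2, 3, 2, 3]
  | 1, 1, 0 => [2, 0, 2, 0, 2, 3, 1, 0, 3, 1, 2, 3, 1, 3, 2]
  | 1, 1, 1 => [3, 2, 0, 2, 1, 0, 2, 3, 1, 0, 3, 1, 2, 0, 3, 2, 3]
  | 1, 1, 2 => [1, 3, 1, 3, 1, 0, 1, 3, 2, 0, 1, 2, 3, 2, 0, 1, 3]
  | 1, 2, 0 => [2, 0, 2, 3, 1, 2, 3, 2, 3, 2, 0, 1, 2, 3, 2, 3]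
  | 1, 2, 1 => [1, 0, 2, 0, 3, 1, 2, 3, 1, 2, 3, 1, 3]
  | 1, 2, 2 => [1, 3, 0, 1, 3, 2, 0, 1, 2, 0, 3, 1, 2, 3, 2]
  | 2, 0, 0 => [2, 3, 2, 0, 3]
  | 2, 0, 1 => [0, 1, 3, 1, 3, 2, 0, 1, 2, 0, 2, 3, 2, 0, 3]
  | 2, 0, 2 => [0, 2, 1, 0, 2, 3, 1, 3, 1, 0, 2, 3, 2, 0, 3]
  | 2, 1, 0 => [2, 1, 3, 0, 1, 2, 3, 1, 2, 3, 2, 0, 2, 3, 2, 3]
  | 2, 1, 1 => [1, 0, 2, 0, 3, 1, 2, 3, 1, 2, 3, 1, 0, 3]
  | 2, 1, 2 => [2, 0, 2, 3, 2, 1, 3, 2, 3, 2, 0, 1, 2, 3, 2, 0, 3]
  | 2, 2, 0 => [1, 3, 1, 3, 1, 2, 0, 2, 0, 3, 1, 2, 3, 2, 3, 2]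
  | 2, 2, 1 => [2, 0, 2, 0, 2, 3, 1, 0, 3, 1, 2, 3, 1, 3, 1, 2]
  | 2, 2, 2 => [1, 0, 2, 3, 1, 0, 1, 2, 3, 1, 0, 3, 2, 3, 1, 3, 2]
  | _, _, _ => []

set_option maxRecDepth 100000 in
theorem chk_x13 : wordCheck chevF4 (lettersOf (ex4 (pw wX 13))) (lettersOf (ex4 [])) = true := by
  decide +kernel

set_option maxRecDepth 100000 in
theorem chk_yx : wordCheck chevF4 (lettersOf (ex4 (wY1 ++ wX))) (lettersOf (ex4 (pw wX 3 ++ wY1))) = true := by
  decide +kernel

set_option maxRecDepth 100000 in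
theorem chk_gy : wordCheck chevF4 (lettersOf (ex4 (wGY ++ wY0))) (lettersOf (ex4 (wY1 ++ wGY))) = true := by
  decide +kernel

set_option maxRecDepth 100000 in
theorem chk_u3 : wordCheck chevF4 (lettersOf (ex4 (pw wU 3))) (lettersOf (ex4 [])) = true := by
  decide +kernel

set_option maxRecDepth 100000 in
theorem chk_v3 : wordCheck chevF4 (lettersOf (ex4 (pw wV 3))) (lettersOf (ex4 [])) = true := by
  decide +kernel

set_option maxRecDepth 100000 in
theorem chk_d3 : wordCheck chevF4 (lettersOf (ex4 (pw wD 3))) (lettersOf (ex4 [])) = true := by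
  decide +kernel

set_option maxRecDepth 100000 in
theorem chk_rel : wordCheck chevF4 (lettersOf (ex4 (wV ++ wU))) (lettersOf (ex4 (wU ++ wV ++ wD))) = true := by
  decide +kernel

set_option maxRecDepth 100000 in
theorem chk_du : wordCheck chevF4 (lettersOf (ex4 (wD ++ wU))) (lettersOf (ex4 (wU ++ wD))) = true := by
  decide +kernel

set_option maxRecDepth 100000 in
theorem chk_dv : wordCheck chevF4 (lettersOf (ex4 (wD ++ wV))) (lettersOf (ex4 (wV ++ wD))) = true := by
  decide +kernel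

/-- The check for one conjugating element. -/
noncomputable def chkW (i j k : ℕ) : Bool :=
  wordCheck chevF4 (lettersOf (ex4 (wWit i j k ++ wY0)))
    (lettersOf (ex4 (pw wU i ++ pw wV j ++ pw wD k ++ wWit i j k)))

set_option maxRecDepth 100000 in
theorem chk_001 : chkW 0 0 1 = true := by
  decide +kernel

set_option maxRecDepth 100000 in
theorem chk_002 : chkW 0 0 2 = true := by
  decide +kernel

set_option maxRecDepth 100000 in
theorem chk_010 : chkW 0 1 0 = true := by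
  decide +kernel

set_option maxRecDepth 100000 in
theorem chk_011 : chkW 0 1 1 = true := by
  decide +kernel

set_option maxRecDepth 100000 in
theorem chk_012 : chkW 0 1 2 = true := by
  decide +kernel

set_option maxRecDepth 100000 in
theorem chk_020 : chkW 0 2 0 = true := by
  decide +kernel

set_option maxRecDepth 100000 in
theorem chk_021 : chkW 0 2 1 = true := by
  decide +kernel

set_option maxRecDepth 100000 in
theorem chk_022 : chkW 0 2 2 = true := by
  decide +kernel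

set_option maxRecDepth 100000 in
theorem chk_100 : chkW 1 0 0 = true := by
  decide +kernel

set_option maxRecDepth 100000 in
theorem chk_101 : chkW 1 0 1 = true := by
  decide +kernel

set_option maxRecDepth 100000 in
theorem chk_102 : chkW 1 0 2 = true := by
  decide +kernel

set_option maxRecDepth 100000 in
theorem chk_110 : chkW 1 1 0 = true := by
  decide +kernel

set_option maxRecDepth 100000 in
theorem chk_111 : chkW 1 1 1 = true := by
  decide +kernel

set_option maxRecDepth 100000 in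
theorem chk_112 : chkW 1 1 2 = true := by
  decide +kernel

set_option maxRecDepth 100000 in
theorem chk_120 : chkW 1 2 0 = true := by
  decide +kernel

set_option maxRecDepth 100000 in
theorem chk_121 : chkW 1 2 1 = true := by
  decide +kernel

set_option maxRecDepth 100000 in
theorem chk_122 : chkW 1 2 2 = true := by
  decide +kernel

set_option maxRecDepth 100000 in
theorem chk_200 : chkW 2 0 0 = true := by
  decide +kernel

set_option maxRecDepth 100000 in
theorem chk_201 : chkW 2 0 1 = true := by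
  decide +kernel

set_option maxRecDepth 100000 in
theorem chk_202 : chkW 2 0 2 = true := by
  decide +kernel

set_option maxRecDepth 100000 in
theorem chk_210 : chkW 2 1 0 = true := by
  decide +kernel

set_option maxRecDepth 100000 in
theorem chk_211 : chkW 2 1 1 = true := by
  decide +kernel

set_option maxRecDepth 100000 in
theorem chk_212 : chkW 2 1 2 = true := by
  decide +kernel

set_option maxRecDepth 100000 in
theorem chk_220 : chkW 2 2 0 = true := by
  decide +kernel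

set_option maxRecDepth 100000 in
theorem chk_221 : chkW 2 2 1 = true := by
  decide +kernel

set_option maxRecDepth 100000 in
theorem chk_222 : chkW 2 2 2 = true := by
  decide +kernel



end Cfsg.Agent.Lib.Contrib.Tits.Data
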