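import Cfsg.Agent.Lib.Contrib.Tits.Data

/-!
# The Tits group has no doubly transitive action
-/

set_option autoImplicit false
set_option linter.unusedSectionVars false
set_option linter.unusedVariables false
set_option linter.ambiguousOpen false

namespace Cfsg.Agent.Lib.Contrib.Tits.Data

open scoped MatrixGroups Matrix
open Cfsg _root_.Cfsg.Lie ChevalleyDatum
open Cfsg.Agent.Lib.Twisted.Sparse Cfsg.Agent.Lib.Twisted.Eval
open Cfsg.Agent.Lib.F24.WordEq
open _root_.Cfsg.Agent.Lib.PermComp.Core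
open scoped commutatorElement

theorem chkW_all (i j k : ℕ) (hi : i < 3) (hj : j < 3) (hk : k < 3) (hne : (i, j, k) ≠ (0, 0, 0)) :
    chkW i j k = true :=
  match i, j, k, hi, hj, hk, hne with
  | 0, 0, 0, _, _, _, h => absurd rfl h
  | 0, 0, 1, _, _, _, _ => chk_001
  | 0, 0, 2, _, _, _, _ => chk_002
  | 0, 1, 0, _, _, _, _ => chk_010
  | 0, 1, 1, _, _, _, _ => chk_011
  | 0, 1, 2, _, _, _, _ => chk_012
  | 0, 2, 0, _, _, _, _ => chk_020
  | 0, 2, 1, _, _, _, _ => chk_021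
  | 0, 2, 2, _, _, _, _ => chk_022
  | 1, 0, 0, _, _, _, _ => chk_100
  | 1, 0, 1, _, _, _, _ => chk_101
  | 1, 0, 2, _, _, _, _ => chk_102
  | 1, 1, 0, _, _, _, _ => chk_110
  | 1, 1, 1, _, _, _, _ => chk_111
  | 1, 1, 2, _, _, _, _ => chk_112
  | 1, 2, 0, _, _, _, _ => chk_120
  | 1, 2, 1, _, _, _, _ => chk_121
  | 1, 2, 2, _, _, _, _ => chk_122
  | 2, 0, 0, _, _, _, _ => chk_200
  | 2, 0, 1, _, _, _, _ => chk_201
  | 2, 0, 2, _, _, _, _ => chk_202
  | 2, 1, 0, _, _, _, _ => chk_210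
  | 2, 1, 1, _, _, _, _ => chk_211
  | 2, 1, 2, _, _, _, _ => chk_212
  | 2, 2, 0, _, _, _, _ => chk_220
  | 2, 2, 1, _, _, _, _ => chk_221
  | 2, 2, 2, _, _, _, _ => chk_222
  | i + 3, _, _, h, _, _, _ => absurd h (by omega)
  | _, j + 3, _, _, h, _, _ => absurd h (by omega)
  | _, _, k + 3, _, _, h, _ => absurd h (by omega)

theorem wit (i j k : ℕ) (hi : i < 3) (hj : j < 3) (hk : k < 3) (hne : (i, j, k) ≠ (0, 0, 0)) :
    ∃ g : T, g * evT wY0 * g⁻¹ = evT wU ^ i * evT wV ^ j * evT wD ^ k := by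
  refine ⟨evT (wWit i j k), ?_⟩
  have h := evT_eq (chkW_all i j k hi hj hk hne)
  rw [evT_append, evT_append, evT_append, evT_append, evT_pw, evT_pw, evT_pw] at h
  rw [h, mul_inv_cancel_right]

/-- The order of the group. -/
theorem card_dvd : Nat.card T ∣ 2 ^ 12 * 3 ^ 3 * 5 ^ 2 * 13 := by
  have h1 := Cfsg.Agent.S1068.result (K := ZMod 2) (m := 0) (by simp [ZMod.card])
  have h2 : Nat.card T ∣ Nat.card (twistedF4 (ZMod 2) 1) := Subgroup.card_subgroup_dvd_card _
  have h3 : Nat.card (twistedF4 (ZMod 2) 1) = 2 ^ 12 * 3 ^ 3 * 5 ^ 2 * 13 := by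
    have e : (2 : ℕ) ^ 0 = 1 := rfl
    rw [e] at h1
    rw [h1]
    norm_num
  rwa [h3] at h2

instance finT : Finite T := by
  have h : Nat.card T ≠ 0 := by
    intro h0
    have := card_dvd
    rw [h0] at this
    norm_num at this
  exact Nat.finite_of_card_ne_zero h

set_option maxRecDepth 100000 in
theorem bit_x : app 1 1 (applyTs 2 1 1 (tablesOf chevF4 2 (lettersOf (ex4 wX))) (2 ^ idxN chevF4 (Sum.inl ⟨0, by decide⟩)))
      (idxN chevF4 (Sum.inl ⟨1, by decide⟩)) = 1 := by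
  decide +kernel

set_option maxRecDepth 100000 in
theorem bit_y : app 1 1 (applyTs 2 1 1 (tablesOf chevF4 2 (lettersOf (ex4 wY0))) (2 ^ idxN chevF4 (Sum.inl ⟨1, by decide⟩)))
      (idxN chevF4 (Sum.inl ⟨0, by decide⟩)) = 1 := by
  decide +kernel

theorem x_ne : evT wX ≠ 1 :=
  evT_ne_one wX (by decide +kernel) _ _ (by decide) bit_x

theorem y_ne : evT wY0 ≠ 1 :=
  evT_ne_one wY0 (by decide +kernel) _ _ (by decide) bit_y

theorem x_order : orderOf (evT wX) = 13 := by
  have : Fact (Nat.Prime 13) := ⟨by norm_num⟩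
  apply orderOf_eq_prime _ x_ne
  rw [← evT_pw, evT_eq chk_x13]
  rfl

/-- The Tits group has no faithful doubly transitive action on at least three points. -/
theorem no_two_transitive {Ω : Type*} [Fintype Ω] [MulAction T Ω] [FaithfulSMul T Ω]
    (hΩ : 3 ≤ Fintype.card Ω) : ¬ MulAction.IsMultiplyPretransitive T Ω 2 := by
  refine Cfsg.Agent.Lib.Contrib.Tits.Abs.main hΩ card_dvd (y₀ := evT wY0) (y₁ := evT wY1)
    (x := evT wX) (u := evT wU) (v := evT wV) (d := evT wD) y_ne x_order ?_ ?_ ?_ ?_ ?_ ?_ ?_ ?_ ?_ wit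
  · have h := evT_eq chk_yx
    rw [evT_append, evT_append, evT_pw] at h
    rw [h, mul_inv_cancel_right]
  · refine ⟨evT wGY, ?_⟩
    have h := evT_eq chk_gy
    rw [evT_append, evT_append] at h
    rw [h, mul_inv_cancel_right]
  · rw [← evT_pw, evT_eq chk_u3]; rfl
  · rw [← evT_pw, evT_eq chk_v3]; rfl
  · rw [← evT_pw, evT_eq chk_d3]; rfl
  · have h := evT_eq chk_rel
    rwa [evT_append, evT_append, evT_append] at h
  · have h := evT_eq chk_du
    rwa [evT_append, evT_append] at h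
  · have h := evT_eq chk_dv
    rwa [evT_append, evT_append] at h
  · obtain ⟨g, hg⟩ := wit 0 0 1 (by norm_num) (by norm_num) (by norm_num) (by decide)
    intro hd
    simp only [pow_zero, pow_one, one_mul] at hg
    rw [hd] at hg
    apply y_ne
    have : g * evT wY0 = g := by
      have := congrArg (· * g) hg
      simpa using this
    exact mul_eq_left.mp this

end Cfsg.Agent.Lib.Contrib.Tits.Data
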